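import Cfsg.Agent.SUClassCount.Sums

/-!
The bounds for the class number of `SU n q`.
-/

set_option autoImplicit false

open Cfsg CfsgLib.Unitary
open scoped Classical

namespace CfsgLib.SUClassCount

universe u

variable {F : Type u} [Field F] [Fintype F] {q n : ℕ}

theorem surjective_detN (hF : Fintype.card F = q ^ 2) (hn : 1 ≤ n) :
    Function.Surjective (detN hF (n := n)) := by
  intro a
  have : (a : Fˣ) ∈ (detGU : ↥(GU n F q) →* Fˣ).range := by rw [range_detGU hF hn]; exact a.2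
  obtain ⟨g, hg⟩ := this
  exact ⟨g, Subtype.ext hg⟩

theorem card_classes_su (hF : Fintype.card F = q ^ 2) (hn : 1 ≤ n) :
    (q + 1) * Nat.card (ConjClasses ↥(SU n F q)) =
      ∑ γ : (↥(normOne F q) →* ℂˣ) × (↥(normOne F q) →* ℂˣ),
        if orderOf γ ∣ n then tupleU q (n / orderOf γ) (n / orderOf γ) else 0 := by
  have hk : (suToGU : ↥(SU n F q) →* ↥(GU n F q)).range = (detN hF).ker := by
    rw [detN, MonoidHom.ker_codRestrict]
    exact ker_detGU.symm
  have h := card_classes_ker (detN hF) suToGU suToGU_injective hk (surjective_detN hF hn)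
    (fun a => if a ∣ n then tupleU q (n / a) (n / a) else 0) (classSum_detN hF)
  rwa [natCard_normOne hF] at h

theorem card_dual (hF : Fintype.card F = q ^ 2) :
    Fintype.card (↥(normOne F q) →* ℂˣ) = q + 1 := by
  rw [← Nat.card_eq_fintype_card, CommGroup.card_monoidHom_of_hasEnoughRootsOfUnity,
    natCard_normOne hF]

theorem orderOf_dvd_succ (hF : Fintype.card F = q ^ 2)
    (γ : (↥(normOne F q) →* ℂˣ) × (↥(normOne F q) →* ℂˣ)) : orderOf γ ∣ q + 1 := by
  rw [← card_dual hF, Prod.orderOf]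
  exact Nat.lcm_dvd orderOf_dvd_card orderOf_dvd_card

theorem card_pairs_dvd (hF : Fintype.card F = q ^ 2) (hn : 1 ≤ n) :
    (Finset.univ.filter fun γ : (↥(normOne F q) →* ℂˣ) × (↥(normOne F q) →* ℂˣ) =>
      orderOf γ ∣ n).card ≤ n ^ 2 := by
  obtain ⟨e⟩ := CommGroup.monoidHom_mulEquiv_of_hasEnoughRootsOfUnity ↥(normOne F q) ℂ
  let S := Finset.univ.filter fun c : ↥(normOne F q) => c ^ n = 1
  have hS : S.card ≤ n := IsCyclic.card_pow_eq_one_le hn
  refine le_trans (Finset.card_le_card_of_injOn (fun γ => (e γ.1, e γ.2)) ?_ ?_) (b := (S ×ˢ S).card) ?_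
  · intro γ hγ
    have h := orderOf_dvd_iff_pow_eq_one.1 (Finset.mem_filter.1 hγ).2
    refine Finset.mem_product.2 ⟨Finset.mem_filter.2 ⟨Finset.mem_univ _, ?_⟩,
      Finset.mem_filter.2 ⟨Finset.mem_univ _, ?_⟩⟩
    · rw [← map_pow, ← Prod.pow_fst, h]; simp
    · rw [← map_pow, ← Prod.pow_snd, h]; simp
  · intro a _ b _ h
    exact Prod.ext (e.injective (congrArg Prod.fst h)) (e.injective (congrArg Prod.snd h))
  · rw [Finset.card_product, sq]; exact Nat.mul_le_mul hS hS

theorem le_classes_su (hF : Fintype.card F = q ^ 2) (hn : 2 ≤ n) :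
    q ^ (n - 1) ≤ Nat.card (ConjClasses ↥(SU n F q)) := by
  refine Nat.le_of_mul_le_mul_left ?_ (show 0 < q + 1 by omega)
  rw [card_classes_su hF (by omega)]
  refine (le_tupleU (show 1 ≤ n by omega)).trans (le_of_eq_of_le ?_
    (Finset.single_le_sum (fun γ _ => Nat.zero_le _)
      (Finset.mem_univ (1 : (↥(normOne F q) →* ℂˣ) × (↥(normOne F q) →* ℂˣ)))))
  simp

theorem classes_su_le_two (hF : Fintype.card F = 2 ^ 2) (hn : 2 ≤ n) :
    100 * Nat.card (ConjClasses ↥(SU n F 2)) ≤ 826 * 2 ^ (n - 1) := by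
  refine upper_two (by omega) ?_
  have h : 3 * Nat.card (ConjClasses ↥(SU n F 2)) = _ := card_classes_su hF (n := n) (by omega)
  rw [h, ← Finset.add_sum_erase _ _ (Finset.mem_univ 1)]
  refine Nat.add_le_add (by simp) ?_
  refine (Finset.sum_le_card_nsmul _ _ (if 3 ∣ n then tupleU 2 (n / 3) (n / 3) else 0) ?_).trans ?_
  · intro γ hγ
    have h3 : orderOf γ = 3 := by
      rcases (Nat.dvd_prime Nat.prime_three).1 (orderOf_dvd_succ hF γ) with h1 | h1
      · exact absurd (orderOf_eq_one_iff.1 h1) (Finset.ne_of_mem_erase hγ)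
      · exact h1
    rw [h3]
  · rw [Finset.card_erase_of_mem (Finset.mem_univ _), Finset.card_univ, Fintype.card_prod,
      card_dual hF, smul_eq_mul]
    split_ifs <;> simp

theorem classes_su_le_three (hF : Fintype.card F = q ^ 2) (hq : 3 ≤ q) (hn : 2 ≤ n) :
    100 * Nat.card (ConjClasses ↥(SU n F q)) ≤ 826 * q ^ (n - 1) := by
  set E := (Finset.univ.filter fun γ : (↥(normOne F q) →* ℂˣ) × (↥(normOne F q) →* ℂˣ) =>
    orderOf γ ∣ n).erase 1 with hE
  let T := E.sup fun γ => tupleU q (n / orderOf γ) (n / orderOf γ)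
  have h1 : (1 : (↥(normOne F q) →* ℂˣ) × (↥(normOne F q) →* ℂˣ)) ∈
      Finset.univ.filter fun γ : (↥(normOne F q) →* ℂˣ) × (↥(normOne F q) →* ℂˣ) => orderOf γ ∣ n := by
    simp
  have hE2 : ∀ γ ∈ E, 2 ≤ orderOf γ ∧ orderOf γ ∣ n := fun γ hγ => by
    obtain ⟨hne, hmem⟩ := Finset.mem_erase.1 hγ
    have := orderOf_pos γ
    have : orderOf γ ≠ 1 := fun e => hne (orderOf_eq_one_iff.1 e)
    exact ⟨by omega, (Finset.mem_filter.1 hmem).2⟩
  refine upper_ge_three (c := E.card) (T := T) hq hn ?_ ?_ ?_ ?_ ?_ rfl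
  · rw [card_classes_su hF (by omega), ← Finset.sum_filter, ← Finset.add_sum_erase _ _ h1, ← hE]
    refine Nat.add_le_add (by simp) ?_
    rw [← smul_eq_mul]
    exact Finset.sum_le_card_nsmul E _ T fun γ hγ =>
      Finset.le_sup (f := fun γ => tupleU q (n / orderOf γ) (n / orderOf γ)) hγ
  · refine Finset.sup_le fun γ hγ => (tupleU_three_le hq _).trans (Nat.mul_le_mul_left _ ?_)
    exact Nat.pow_le_pow_right (by omega) (Nat.div_le_div_left (hE2 γ hγ).1 two_pos)
  · intro hn3
    refine Finset.sup_le fun γ hγ => ?_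
    obtain ⟨h2, hd⟩ := hE2 γ hγ
    have : orderOf γ = n := by
      obtain ⟨k, hk⟩ := hd
      rcases k with _ | _ | k
      · omega
      · omega
      · exfalso; have := Nat.mul_le_mul h2 (show 2 ≤ k + 1 + 1 by omega); omega
    rw [this, Nat.div_self (by omega), tupleU_one]
    simp [levelU]
  · have := card_pairs_dvd hF (n := n) (by omega)
    rw [hE, Finset.card_erase_of_mem h1]
    have := Finset.card_pos.2 ⟨_, h1⟩
    omega
  · rw [hE, Finset.card_erase_of_mem h1]
    have := Finset.card_pos.2 ⟨_, h1⟩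
    have := Finset.card_le_univ (Finset.univ.filter fun γ : (↥(normOne F q) →* ℂˣ) × (↥(normOne F q) →* ℂˣ) => orderOf γ ∣ n)
    rw [Fintype.card_prod, card_dual hF, ← sq] at this
    omega

theorem su_class_number_bounds (hF : Fintype.card F = q ^ 2) (hn : 2 ≤ n) :
    q ^ (n - 1) ≤ Nat.card (ConjClasses ↥(SU n F q)) ∧
      100 * Nat.card (ConjClasses ↥(SU n F q)) ≤ 826 * q ^ (n - 1) := by
  refine ⟨le_classes_su hF hn, ?_⟩
  rcases (show q = 2 ∨ 3 ≤ q by have := two_le_q hF; omega) with rfl | h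
  · exact classes_su_le_two hF hn
  · exact classes_su_le_three hF h hn

end CfsgLib.SUClassCount
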