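import Mathlib

/-!
The number of self-dual tuples of polynomials indexing the classes of the unitary group, and its
bounds.
-/

set_option autoImplicit false

namespace CfsgLib.SUClassCount

open Finset

/-- Number of self-dual monic polynomials of degree `m` with non-zero constant term. -/
def levelU (q m : ℕ) : ℕ := if m = 0 then 1 else (q + 1) * q ^ (m - 1)

/-- Number of self-dual tuples with levels `1, …, K` of total weight `n`. -/
def tupleU (q : ℕ) : ℕ → ℕ → ℕ
  | n, 0 => if n = 0 then 1 else 0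
  | n, K + 1 => ∑ m ∈ range (n / (K + 1) + 1), levelU q m * tupleU q (n - (K + 1) * m) K

theorem tupleU_mono (q n K : ℕ) : tupleU q n K ≤ tupleU q n (K + 1) := by
  conv_rhs => rw [tupleU]
  refine le_trans ?_ (single_le_sum (f := fun m => levelU q m * tupleU q (n - (K + 1) * m) K)
    (fun m _ => Nat.zero_le _) (mem_range.2 (Nat.succ_pos _)))
  simp [levelU]

theorem tupleU_stable (q : ℕ) : ∀ {n K : ℕ}, n ≤ K → tupleU q n K = tupleU q n n := by
  intro n K h
  induction K, h using Nat.le_induction with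
  | base => rfl
  | succ K hK ih =>
    rw [tupleU, Nat.div_eq_of_lt (by omega)]
    simpa [levelU] using ih

theorem tupleU_one (q n : ℕ) : tupleU q n 1 = levelU q n := by
  rw [tupleU, Finset.sum_eq_single n]
  · simp [tupleU]
  · intro b hb hne
    have : b < n := by
      have := Finset.mem_range.1 hb
      rw [Nat.div_one] at this
      omega
    simp [tupleU]; omega
  · intro h; exact absurd (Finset.mem_range.2 (by rw [Nat.div_one]; omega)) h

theorem le_tupleU {q n : ℕ} (hn : 1 ≤ n) : (q + 1) * q ^ (n - 1) ≤ tupleU q n n := by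
  have h : ∀ K, 1 ≤ K → (q + 1) * q ^ (n - 1) ≤ tupleU q n K := by
    intro K hK
    induction K, hK using Nat.le_induction with
    | base => rw [tupleU_one, levelU, if_neg (by omega)]
    | succ K _ ih => exact ih.trans (tupleU_mono q n K)
  exact h n hn

/-- The partial products of the generating function at `q⁻¹`. -/
def bnd (q : ℚ) : ℕ → ℚ
  | 0 => 1
  | 1 => 1 + 1 / q
  | K + 2 => bnd q (K + 1) * ((1 + q⁻¹ ^ (K + 1) / q) / (1 - q⁻¹ ^ (K + 1)))

theorem inv_pow_lt_one {q : ℚ} (hq : 2 ≤ q) (K : ℕ) : q⁻¹ ^ (K + 1) < 1 :=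
  pow_lt_one₀ (inv_nonneg.2 (by linarith)) (inv_lt_one_of_one_lt₀ (by linarith)) (Nat.succ_ne_zero K)

theorem bnd_pos {q : ℚ} (hq : 2 ≤ q) : ∀ K, 0 < bnd q K
  | 0 => one_pos
  | 1 => by rw [bnd]; positivity
  | K + 2 => by
    rw [bnd]
    have := inv_pow_lt_one hq K
    have : 0 < 1 - q⁻¹ ^ (K + 1) := by linarith
    have := bnd_pos hq (K + 1)
    positivity

theorem bnd_le_succ {q : ℚ} (hq : 2 ≤ q) : ∀ K, bnd q K ≤ bnd q (K + 1)
  | 0 => by simp [bnd]; linarith
  | K + 1 => by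
    conv_rhs => rw [bnd]
    refine le_mul_of_one_le_right (bnd_pos hq _).le ?_
    have := inv_pow_lt_one hq K
    rw [le_div_iff₀ (by linarith), one_mul]
    have h1 : 0 ≤ q⁻¹ ^ (K + 1) / q := by positivity
    have h2 : 0 ≤ q⁻¹ ^ (K + 1) := by positivity
    linarith

theorem bnd_anti {a q : ℚ} (ha : 2 ≤ a) (haq : a ≤ q) : ∀ K, bnd q K ≤ bnd a K
  | 0 => le_rfl
  | 1 => by
    rw [bnd, bnd]
    have : 1 / q ≤ 1 / a := one_div_le_one_div_of_le (by linarith) haq
    linarith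
  | K + 2 => by
    rw [bnd, bnd]
    have hx : q⁻¹ ^ (K + 1) ≤ a⁻¹ ^ (K + 1) :=
      pow_le_pow_left₀ (inv_nonneg.2 (by linarith)) (inv_anti₀ (by linarith) haq) _
    have h1 := inv_pow_lt_one ha K
    have h2 := inv_pow_lt_one (show 2 ≤ q by linarith) K
    have h3 : q⁻¹ ^ (K + 1) / q ≤ a⁻¹ ^ (K + 1) / a :=
      div_le_div₀ (by positivity) hx (by linarith) haq
    have h4 : 0 ≤ q⁻¹ ^ (K + 1) / q := div_nonneg (pow_nonneg (inv_nonneg.2 (by linarith)) _) (by linarith)
    have h5 : 0 < 1 - q⁻¹ ^ (K + 1) := by linarith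
    exact mul_le_mul (bnd_anti ha haq _) (div_le_div₀ (by linarith) (by linarith) (by linarith) (by linarith))
      (div_nonneg (by linarith) h5.le) (bnd_pos ha _).le

theorem sum_geom_le {r : ℚ} (h0 : 0 ≤ r) (h1 : r < 1) :
    ∀ M, ∑ m ∈ range M, r ^ (m + 1) ≤ r / (1 - r)
  | 0 => by simpa using div_nonneg h0 (by linarith)
  | M + 1 => by
    rw [sum_range_succ', show (0 : ℕ) + 1 = 1 from rfl, pow_one]
    have hm : ∑ k ∈ range M, r ^ (k + 1 + 1) = r * ∑ k ∈ range M, r ^ (k + 1) := by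
      rw [mul_sum]; exact sum_congr rfl fun k _ => by ring
    rw [hm]
    refine (add_le_add_left (mul_le_mul_of_nonneg_left (sum_geom_le h0 h1 M) h0) r).trans_eq ?_
    have : (1 - r) ≠ 0 := by linarith
    field_simp
    ring

theorem tupleU_le_bnd {q : ℕ} (hq : 2 ≤ q) :
    ∀ K n : ℕ, (tupleU q n K : ℚ) ≤ bnd q K * (q : ℚ) ^ n := by
  have hqQ : (2 : ℚ) ≤ q := by exact_mod_cast hq
  have hq0 : (q : ℚ) ≠ 0 := by positivity
  intro K
  induction K with
  | zero =>
    intro n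
    rw [tupleU]
    split_ifs with h
    · subst h; simp [bnd]
    · simp [bnd]
  | succ K ih =>
    intro n
    rcases K with _ | K
    · rw [tupleU_one, levelU, bnd]
      split_ifs with h
      · subst h; simp
      · obtain ⟨j, rfl⟩ : ∃ j, n = j + 1 := ⟨n - 1, by omega⟩
        push_cast
        simp only [pow_succ]
        field_simp
        rfl
    rw [tupleU, sum_range_succ', Nat.cast_add, Nat.cast_sum]
    have hr1 := inv_pow_lt_one hqQ K
    set r : ℚ := (q : ℚ)⁻¹ ^ (K + 1) with hr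
    have hr0 : 0 ≤ r := by positivity
    have hterm : ∀ m ∈ range (n / (K + 1 + 1)),
        ((levelU q (m + 1) * tupleU q (n - (K + 1 + 1) * (m + 1)) (K + 1) : ℕ) : ℚ) ≤
          bnd q (K + 1) * (q : ℚ) ^ n * ((1 + 1 / q) * r ^ (m + 1)) := by
      intro m hm
      have hle : (K + 1 + 1) * (m + 1) ≤ n := by
        rw [mul_comm]; exact (Nat.le_div_iff_mul_le (Nat.succ_pos _)).1 (mem_range.1 hm)
      rw [levelU, if_neg (Nat.succ_ne_zero m), Nat.add_sub_cancel]
      push_cast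
      refine (mul_le_mul_of_nonneg_left (ih _) (by positivity)).trans_eq ?_
      set j := n - (K + 1 + 1) * (m + 1) with hj
      have hn : n = j + (m + 1) + (K + 1) * (m + 1) := by
        have : (K + 1 + 1) * (m + 1) = (m + 1) + (K + 1) * (m + 1) := by ring
        omega
      conv_rhs => rw [hr, ← pow_mul, inv_pow, hn, pow_add, pow_add]
      field_simp
      ring
    refine (add_le_add (sum_le_sum hterm) (le_of_eq_of_le (by simp [levelU]) (ih n))).trans ?_
    rw [← mul_sum, ← mul_sum, bnd, ← hr]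
    have hP : 0 ≤ bnd q (K + 1) * (q : ℚ) ^ n := mul_nonneg (bnd_pos hqQ _).le (by positivity)
    have hS := sum_geom_le hr0 hr1 (n / (K + 1 + 1))
    have h1r : (1 - r) ≠ 0 := by linarith
    calc bnd q (K + 1) * (q : ℚ) ^ n * ((1 + 1 / q) * ∑ i ∈ range (n / (K + 1 + 1)), r ^ (i + 1))
          + bnd q (K + 1) * (q : ℚ) ^ n
        ≤ bnd q (K + 1) * (q : ℚ) ^ n * ((1 + 1 / q) * (r / (1 - r)))
          + bnd q (K + 1) * (q : ℚ) ^ n :=
          add_le_add_left (mul_le_mul_of_nonneg_left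
            (mul_le_mul_of_nonneg_left hS (by positivity)) hP) _
      _ = bnd q (K + 1) * ((1 + r / q) / (1 - r)) * (q : ℚ) ^ n := by
          field_simp
          ring

theorem bnd_le_of_tail {a B c : ℚ} (ha : 2 ≤ a) (hB : 0 ≤ B) {K₀ : ℕ} (hK₀ : 1 ≤ K₀)
    (h₀ : bnd a K₀ ≤ B * (1 - c * a⁻¹ ^ K₀)) (hc : 0 ≤ c)
    (hstep : ∀ r : ℚ, 0 ≤ r → r < 1 → (1 - c * r) * (1 + r / a) ≤ (1 - c * (r * a⁻¹)) * (1 - r)) :
    ∀ K, bnd a K ≤ B := by
  have h : ∀ K, K₀ ≤ K → bnd a K ≤ B * (1 - c * a⁻¹ ^ K) := by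
    intro K hK
    induction K, hK using Nat.le_induction with
    | base => exact h₀
    | succ K hK ih =>
      obtain ⟨k, rfl⟩ : ∃ k, K = k + 1 := ⟨K - 1, by omega⟩
      have hr1 := inv_pow_lt_one ha k
      rw [bnd, pow_succ a⁻¹ (k + 1)]
      set r := a⁻¹ ^ (k + 1)
      have hr0 : 0 ≤ r := pow_nonneg (inv_nonneg.2 (by linarith)) _
      have hra : 0 ≤ r / a := div_nonneg hr0 (by linarith)
      refine (mul_le_mul_of_nonneg_right ih (div_nonneg (by linarith) (by linarith))).trans ?_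
      rw [mul_assoc, ← mul_div_assoc]
      exact mul_le_mul_of_nonneg_left ((div_le_iff₀ (by linarith)).2 (hstep r hr0 hr1)) hB
  intro K
  rcases le_or_gt K₀ K with hK | hK
  · refine (h K hK).trans (mul_le_of_le_one_right hB ?_)
    have : 0 ≤ c * a⁻¹ ^ K := mul_nonneg hc (pow_nonneg (inv_nonneg.2 (by linarith)) _)
    linarith
  · have hm : ∀ j, K ≤ j → bnd a K ≤ bnd a j := fun j hj => by
      induction j, hj using Nat.le_induction with
      | base => rfl
      | succ j _ ih => exact ih.trans (bnd_le_succ ha j)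
    refine (hm K₀ hK.le).trans ((h K₀ le_rfl).trans (mul_le_of_le_one_right hB ?_))
    have : 0 ≤ c * a⁻¹ ^ K₀ := mul_nonneg hc (pow_nonneg (inv_nonneg.2 (by linarith)) _)
    linarith

theorem bnd_two (K : ℕ) : bnd 2 K ≤ 17 / 2 :=
  bnd_le_of_tail (c := 3) (K₀ := 6) le_rfl (by norm_num) (by norm_num)
    (by norm_num [bnd]) (by norm_num) (fun r _ _ => by nlinarith [sq_nonneg r]) K

theorem bnd_three (K : ℕ) : bnd 3 K ≤ 3 :=
  bnd_le_of_tail (c := 2) (K₀ := 4) (by norm_num) (by norm_num) (by norm_num)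
    (by norm_num [bnd]) (by norm_num) (fun r _ _ => by nlinarith [sq_nonneg r]) K

theorem tupleU_two_le {n : ℕ} (K : ℕ) : 2 * tupleU 2 n K ≤ 17 * 2 ^ n := by
  have h : ((2 : ℕ) * tupleU 2 n K : ℚ) ≤ 17 * 2 ^ n := by
    have h1 := tupleU_le_bnd (q := 2) le_rfl K n
    have h2 := mul_le_mul_of_nonneg_right (bnd_two K) (show (0 : ℚ) ≤ 2 ^ n by positivity)
    push_cast at h1 ⊢
    linarith
  exact_mod_cast h

theorem tupleU_three_le {q n : ℕ} (hq : 3 ≤ q) (K : ℕ) : tupleU q n K ≤ 3 * q ^ n := by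
  have h : (tupleU q n K : ℚ) ≤ 3 * (q : ℚ) ^ n := by
    refine (tupleU_le_bnd (q := q) (by omega) K n).trans ?_
    exact mul_le_mul_of_nonneg_right ((bnd_anti (by norm_num) (by exact_mod_cast hq) K).trans
      (bnd_three K)) (by positivity)
  exact_mod_cast h

theorem upper_two {n N : ℕ} (hn : 1 ≤ n)
    (h : 3 * N ≤ tupleU 2 n n + if 3 ∣ n then 8 * tupleU 2 (n / 3) (n / 3) else 0) :
    100 * N ≤ 826 * 2 ^ (n - 1) := by
  have h1 := tupleU_two_le (n := n) n
  obtain ⟨j, rfl⟩ : ∃ j, n = j + 1 := ⟨n - 1, by omega⟩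
  rw [Nat.add_sub_cancel]
  rw [pow_succ] at h1
  split_ifs at h with h3
  swap
  · omega
  obtain ⟨m, hm⟩ := h3
  rw [hm, Nat.mul_div_cancel_left m (by norm_num : 0 < 3), ← hm] at h
  rcases (show m = 1 ∨ m = 2 ∨ 3 ≤ m by omega) with rfl | rfl | h3m
  · have e : tupleU 2 1 1 = 3 := by decide
    obtain rfl : j = 2 := by omega
    rw [e] at h
    norm_num at h h1 ⊢
    omega
  · have e : tupleU 2 2 2 ≤ 12 := by decide
    obtain rfl : j = 5 := by omega
    norm_num at h h1 ⊢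
    omega
  · have h2 := tupleU_two_le (n := m) m
    have e : 2 ^ m * 32 ≤ 2 ^ j := by
      rw [show (32 : ℕ) = 2 ^ 5 from rfl, ← pow_add]
      exact Nat.pow_le_pow_right (by norm_num) (by omega)
    omega

theorem upper_ge_three {q n N R c T : ℕ} (hq : 3 ≤ q) (hn : 2 ≤ n)
    (h : (q + 1) * N ≤ tupleU q n n + c * T) (hT : T ≤ 3 * q ^ (n / 2))
    (hT1 : n ≤ 3 → T ≤ q + 1) (hc1 : c + 1 ≤ n ^ 2) (hc2 : c + 1 ≤ (q + 1) ^ 2)
    (hR : R = q ^ (n - 1)) : 100 * N ≤ 826 * R := by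
  subst hR
  refine Nat.le_of_mul_le_mul_left ?_ (show 0 < q + 1 by omega)
  have h1 := tupleU_three_le (n := n) hq n
  obtain ⟨j, rfl⟩ : ∃ j, n = j + 1 := ⟨n - 1, by omega⟩
  rw [Nat.add_sub_cancel]
  rw [pow_succ] at h1
  have key : 100 * (c * T) ≤ 526 * (q ^ j * q) + 826 * q ^ j := by
    rcases (show j = 1 ∨ j = 2 ∨ 3 ≤ j by omega) with rfl | rfl | h3
    · have := Nat.mul_le_mul (show c ≤ 3 by norm_num at hc1; omega) (hT1 (by norm_num))
      rw [pow_one]
      nlinarith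
    · have := Nat.mul_le_mul (show c ≤ 8 by norm_num at hc1; omega) (hT1 (by norm_num))
      nlinarith [Nat.mul_le_mul (Nat.mul_le_mul hq hq) (le_refl q)]
    · have e1 : q ^ ((j + 1) / 2) * q ^ 2 ≤ q ^ j * q := by
        rw [← pow_add, ← pow_succ]
        exact Nat.pow_le_pow_right (by omega) (by omega)
      have hc : 3 * c ≤ 5 * q ^ 2 := by nlinarith [Nat.mul_le_mul hq (le_refl q)]
      have := Nat.mul_le_mul hc hT
      nlinarith
  calc (q + 1) * (100 * N) = 100 * ((q + 1) * N) := by ring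
    _ ≤ 100 * (tupleU q (j + 1) (j + 1) + c * T) := Nat.mul_le_mul_left _ h
    _ ≤ 100 * (3 * (q ^ j * q)) + (526 * (q ^ j * q) + 826 * q ^ j) := by
        rw [Nat.mul_add]; exact Nat.add_le_add (Nat.mul_le_mul_left _ h1) key
    _ = (q + 1) * (826 * q ^ j) := by ring

end CfsgLib.SUClassCount
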