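import Mathlib
import Cfsg.Agent.Chars.Basic
import Cfsg.Agent.SLClassCount.Pairs

/-!
The class number of the kernel of a surjection onto a finite cyclic group, from the character sums
over the classes of the whole group.
-/

set_option autoImplicit false

open scoped Classical

namespace CfsgLib.SUClassCount

variable {G A : Type*} [Group G] [Fintype G] [CommGroup A] [Fintype A]

noncomputable scoped instance fintypeDual : Fintype (A →* ℂˣ) :=
  Fintype.ofEquiv A (Classical.choice
    (CommGroup.monoidHom_mulEquiv_of_hasEnoughRootsOfUnity A ℂ)).toEquiv.symm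

/-- Commuting pairs. -/
noncomputable def commPairs : Finset (G × G) := Finset.univ.filter fun p => p.1 * p.2 = p.2 * p.1

theorem mem_commPairs {p : G × G} : p ∈ commPairs ↔ p.1 * p.2 = p.2 * p.1 := by simp [commPairs]

/-- The twisted count of commuting pairs. -/
noncomputable def twistSum (d : G →* A) (α β : A →* ℂˣ) : ℂ :=
  ∑ p ∈ commPairs (G := G), ((α (d p.1) * β (d p.2) : ℂˣ) : ℂ)

theorem twistSum_shearLeft (d : G →* A) (α β : A →* ℂˣ) :
    twistSum d (α * β) β = twistSum d α β := by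
  refine Finset.sum_nbij' (fun p => (p.1, p.2 * p.1)) (fun p => (p.1, p.2 * p.1⁻¹)) ?_ ?_ ?_ ?_ ?_
  · intro p hp
    rw [mem_commPairs] at hp ⊢
    rw [← mul_assoc, hp]
  · intro p hp
    rw [mem_commPairs] at hp ⊢
    rw [← mul_assoc, hp]; group
  · intro p _; simp
  · intro p _; simp
  · intro p _
    simp only [MonoidHom.mul_apply, map_mul, Units.val_mul]
    ring

theorem twistSum_shearRight (d : G →* A) (α β : A →* ℂˣ) :
    twistSum d α (α * β) = twistSum d α β := by
  refine Finset.sum_nbij' (fun p => (p.1 * p.2, p.2)) (fun p => (p.1 * p.2⁻¹, p.2)) ?_ ?_ ?_ ?_ ?_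
  · intro p hp
    rw [mem_commPairs] at hp ⊢
    conv_lhs => rw [hp]
    group
  · intro p hp
    rw [mem_commPairs] at hp ⊢
    rw [inv_mul_cancel_right, ← mul_assoc, ← hp, mul_inv_cancel_right]
  · intro p _; simp
  · intro p _; simp
  · intro p _
    simp only [MonoidHom.mul_apply, map_mul, Units.val_mul]
    ring

theorem twistSum_swap (d : G →* A) (β : A →* ℂˣ) : twistSum d 1 β = twistSum d β⁻¹ 1 := by
  refine Finset.sum_nbij' (fun p => (p.2⁻¹, p.1)) (fun p => (p.2, p.1⁻¹)) ?_ ?_ ?_ ?_ ?_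
  · intro p hp
    rw [mem_commPairs] at hp ⊢
    show p.2⁻¹ * p.1 = p.1 * p.2⁻¹
    rw [inv_mul_eq_iff_eq_mul, ← mul_assoc, ← hp, mul_inv_cancel_right]
  · intro p hp
    rw [mem_commPairs] at hp ⊢
    show p.2 * p.1⁻¹ = p.1⁻¹ * p.2
    rw [eq_inv_mul_iff_mul_eq, ← mul_assoc, hp, mul_inv_cancel_right]
  · intro p _; simp
  · intro p _; simp
  · intro p _; simp

section
attribute [local irreducible] twistSum

theorem exists_reduce' [IsCyclic A] (d : G →* A) (α β : A →* ℂˣ) :
    ∃ γ : A →* ℂˣ, twistSum d α β = twistSum d γ 1 ∧ orderOf γ = orderOf (α, β) := by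
  obtain ⟨e⟩ := CommGroup.monoidHom_mulEquiv_of_hasEnoughRootsOfUnity A ℂ
  obtain ⟨χ, hχ⟩ := SLClassCount.exists_gen_pow e
  obtain ⟨a, rfl⟩ := hχ α
  obtain ⟨b, rfl⟩ := hχ β
  exact SLClassCount.reduce_aux (A := A →* ℂˣ) (twistSum d) (fun α β => twistSum_shearLeft d α β)
    (fun α β => twistSum_shearRight d α β) (fun β => twistSum_swap d β) χ (a + b) a b rfl

end

/-- The character sum over the classes. -/
noncomputable def classSum (d : G →* A) (γ : A →* ℂˣ) : ℂ :=
  ∑ C : ConjClasses G, ((γ (d (Quotient.out C)) : ℂˣ) : ℂ)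

theorem twistSum_one (d : G →* A) (γ : A →* ℂˣ) :
    twistSum d γ 1 = (Nat.card G : ℂ) * classSum d γ := by
  rw [twistSum, commPairs, Finset.sum_filter, Fintype.sum_prod_type, classSum, Finset.mul_sum]
  have hx : ∀ x : G, (∑ y, if x * y = y * x then
      ((γ (d x) * (1 : A →* ℂˣ) (d y) : ℂˣ) : ℂ) else 0) =
      ((γ (d x) : ℂˣ) : ℂ) * (Nat.card (Subgroup.centralizer ({x} : Set G)) : ℂ) := by
    intro x
    simp only [MonoidHom.one_apply, mul_one]
    rw [← Finset.sum_filter, Finset.sum_const, nsmul_eq_mul, mul_comm, ← Nat.card_eq_finsetCard]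
    congr 2
    exact Nat.card_congr (Equiv.subtypeEquivRight fun y => by
      simp [Subgroup.mem_centralizer_iff, eq_comm])
  rw [Finset.sum_congr rfl fun x _ => hx x,
    ← Finset.sum_fiberwise Finset.univ (ConjClasses.mk : G → _)]
  refine Finset.sum_congr rfl fun C _ => ?_
  set g := Quotient.out C with hg
  have hC : ConjClasses.mk g = C := Quotient.out_eq C
  rw [Finset.sum_eq_card_nsmul (b := ((γ (d g) : ℂˣ) : ℂ) *
    (Nat.card (Subgroup.centralizer ({g} : Set G)) : ℂ)) fun x hx' => ?_]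
  · rw [nsmul_eq_mul, ← Nat.card_eq_finsetCard, ← CfsgLib.Chars.card_carrier_mul_card_centralizer g,
      Nat.cast_mul, mul_comm ((γ (d g) : ℂˣ) : ℂ), mul_assoc]
    congr 2
    exact Nat.card_congr (Equiv.subtypeEquivRight fun x => by
      simp [ConjClasses.mem_carrier_iff_mk_eq, hC])
  · have he : ConjClasses.mk x = ConjClasses.mk g := (Finset.mem_filter.1 hx').2.trans hC.symm
    obtain ⟨c, hc⟩ := isConj_iff.1 (ConjClasses.mk_eq_mk_iff_isConj.1 he)
    have hd : d x = d g := by rw [← hc, map_mul, map_mul, map_inv, mul_right_comm, mul_inv_cancel, one_mul]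
    have h1 := CfsgLib.Chars.card_carrier_mul_card_centralizer x
    rw [he, ← CfsgLib.Chars.card_carrier_mul_card_centralizer g] at h1
    rw [hd, Nat.eq_of_mul_eq_mul_left (Nat.card_pos_iff.2
      ⟨⟨⟨g, ConjClasses.mem_carrier_mk⟩⟩, inferInstance⟩) h1]

theorem sum_dual (u : A) :
    ∑ α : A →* ℂˣ, ((α u : ℂˣ) : ℂ) = if u = 1 then (Nat.card A : ℂ) else 0 := by
  have hcard : Fintype.card (A →* ℂˣ) = Nat.card A := by
    rw [← Nat.card_eq_fintype_card, CommGroup.card_monoidHom_of_hasEnoughRootsOfUnity]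
  split_ifs with h
  · subst h; simp [hcard]
  · obtain ⟨φ, hφ⟩ := CommGroup.exists_apply_ne_one_of_hasEnoughRootsOfUnity A ℂ h
    exact sum_hom_units_eq_zero ((Units.coeHom ℂ).comp (MonoidHom.eval u)) fun e => hφ (Units.ext (by
      simpa using DFunLike.congr_fun e φ))

/-- The class number of the kernel. -/
theorem card_classes_ker [IsCyclic A] {K : Type*} [Group K] [Fintype K] (d : G →* A) (ι : K →* G)
    (hι : Function.Injective ι) (hrange : ι.range = d.ker) (hd : Function.Surjective d) (f : ℕ → ℕ)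
    (hf : ∀ γ : A →* ℂˣ, classSum d γ = (f (orderOf γ) : ℂ)) :
    Nat.card A * Nat.card (ConjClasses K) =
      ∑ γ : (A →* ℂˣ) × (A →* ℂˣ), f (orderOf γ) := by
  have hcardG : Nat.card G = Nat.card K * Nat.card A := by
    rw [← d.ker.card_mul_index, Subgroup.index_ker, MonoidHom.range_eq_top.2 hd, Subgroup.card_top,
      ← hrange, Nat.card_congr (MonoidHom.ofInjective hι).symm.toEquiv]
  have hmem : ∀ x, d x = 1 ↔ ∃ a, ι a = x := fun x => by
    rw [← MonoidHom.mem_ker, ← hrange, MonoidHom.mem_range]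
  have hK : ((commPairs (G := G)).filter fun p => d p.1 = 1 ∧ d p.2 = 1).card =
      Nat.card (ConjClasses K) * Nat.card K := by
    rw [← card_comm_eq_card_conjClasses_mul_card, Nat.card_eq_fintype_card, Fintype.card_subtype]
    symm
    refine Finset.card_bij (fun p _ => (ι p.1, ι p.2)) (fun p hp => ?_) (fun a _ b _ e => ?_)
      (fun p hp => ?_)
    · exact Finset.mem_filter.2 ⟨mem_commPairs.2 ((Finset.mem_filter.1 hp).2.map ι).eq,
        (hmem _).2 ⟨_, rfl⟩, (hmem _).2 ⟨_, rfl⟩⟩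
    · exact Prod.ext (hι (congrArg Prod.fst e)) (hι (congrArg Prod.snd e))
    · obtain ⟨hz, h1, h2⟩ := Finset.mem_filter.1 hp
      obtain ⟨a, ha⟩ := (hmem _).1 h1
      obtain ⟨b, hb⟩ := (hmem _).1 h2
      refine ⟨(a, b), Finset.mem_filter.2 ⟨Finset.mem_univ _, hι ?_⟩, by rw [ha, hb]⟩
      rw [map_mul, map_mul, ha, hb]
      exact mem_commPairs.1 hz
  have h1 : ∑ γ : (A →* ℂˣ) × (A →* ℂˣ), twistSum d γ.1 γ.2 =
      ((Nat.card A * Nat.card A * (Nat.card (ConjClasses K) * Nat.card K) : ℕ) : ℂ) := by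
    rw [← hK, Finset.card_filter, Nat.cast_mul, Nat.cast_sum, Finset.mul_sum]
    simp only [twistSum]
    rw [Finset.sum_comm]
    refine Finset.sum_congr rfl fun p _ => ?_
    simp only [Units.val_mul]
    rw [Fintype.sum_prod_type]
    simp only []
    rw [← Finset.sum_mul_sum, sum_dual, sum_dual]
    split_ifs <;> simp_all
  have h2 : ∀ γ : (A →* ℂˣ) × (A →* ℂˣ), twistSum d γ.1 γ.2 =
      ((Nat.card G * f (orderOf γ) : ℕ) : ℂ) := by
    intro γ
    obtain ⟨δ, e1, e2⟩ := exists_reduce' d γ.1 γ.2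
    rw [e1, twistSum_one, hf, e2, Nat.cast_mul]
  rw [Finset.sum_congr rfl fun γ _ => h2 γ, ← Nat.cast_sum, ← Finset.mul_sum, Nat.cast_inj,
    hcardG] at h1
  refine Nat.eq_of_mul_eq_mul_left (Nat.mul_pos (Nat.card_pos (α := K)) (Nat.card_pos (α := A))) ?_
  rw [h1]
  ring

end CfsgLib.SUClassCount
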