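import Cfsg.Agent.SLClassCount.Scale
import Cfsg.Agent.Spec53.SUSemisimple
import Cfsg.Agent.Classical.Unitary.LangFinite

/-!
The classes of the unitary group correspond to the tuples of self-dual polynomials.
-/

set_option autoImplicit false

open Polynomial Cfsg CfsgLib.Unitary

namespace CfsgLib.SUClassCount

open CfsgLib.GLClassCount CfsgLib.SLClassCount CfsgLib.Spec53

universe u

variable {F : Type u} [Field F] [Fintype F] {q n : ℕ}

local notation "Mat" => Matrix (Fin n) (Fin n) F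

/-- Elements of `GU` conjugate in `GL` are conjugate in `GU`. -/
theorem isConj_GU_of_isConj (hF : Fintype.card F = q ^ 2) {g g' : ↥(GU n F q)}
    (h : IsConj (g : GL (Fin n) F) (g' : GL (Fin n) F)) : IsConj g g' := by
  obtain ⟨c, hc⟩ := isConj_iff.1 h
  have hcg : ((c : GL (Fin n) F) : Mat) * ((g : GL (Fin n) F) : Mat) =
      ((g' : GL (Fin n) F) : Mat) * (c : Mat) := by
    rw [← Units.val_mul, ← Units.val_mul, ← hc]; simp
  set H : Mat := cjT q (c : Mat) * (c : Mat) with hHdef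
  have hg := (mem_GU_iff_cjT hF).1 g.2
  have hg' := (mem_GU_iff_cjT hF).1 g'.2
  have hH : cjT q H = H := by rw [hHdef, cjT_mul hF, cjT_cjT hF]
  have hu : IsUnit H := (isUnit_cjT hF c.isUnit).mul c.isUnit
  have hcomm : Commute ((g : GL (Fin n) F) : Mat) H := by
    have e : cjT q ((g : GL (Fin n) F) : Mat) * H * ((g : GL (Fin n) F) : Mat) = H := by
      calc cjT q ((g : GL (Fin n) F) : Mat) * H * ((g : GL (Fin n) F) : Mat)
          = cjT q ((c : Mat) * ((g : GL (Fin n) F) : Mat)) *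
              ((c : Mat) * ((g : GL (Fin n) F) : Mat)) := by
            rw [hHdef, cjT_mul hF]; simp only [mul_assoc]
        _ = cjT q (c : Mat) * (cjT q ((g' : GL (Fin n) F) : Mat) * ((g' : GL (Fin n) F) : Mat)) *
              (c : Mat) := by rw [hcg, cjT_mul hF]; simp only [mul_assoc]
        _ = H := by rw [hg', mul_one]
    have hg2 : ((g : GL (Fin n) F) : Mat) * cjT q ((g : GL (Fin n) F) : Mat) = 1 :=
      mul_eq_one_comm.1 hg
    show ((g : GL (Fin n) F) : Mat) * H = H * ((g : GL (Fin n) F) : Mat)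
    conv_lhs => rw [← e, ← mul_assoc, ← mul_assoc, hg2, one_mul]
  obtain ⟨Z, hZu, hZc, hZ⟩ := exists_cjT_mul_self hF hH hu
  obtain ⟨z, rfl⟩ := hZu
  let w : GL (Fin n) F := c * z⁻¹
  have hw : w ∈ GU n F q := by
    rw [mem_GU_iff_cjT hF]
    show cjT q ((c : Mat) * ((z⁻¹ : GL (Fin n) F) : Mat)) * ((c : Mat) * ((z⁻¹ : GL (Fin n) F) : Mat)) = 1
    rw [cjT_mul hF]
    calc cjT q ((z⁻¹ : GL (Fin n) F) : Mat) * cjT q (c : Mat) * ((c : Mat) * ((z⁻¹ : GL (Fin n) F) : Mat))
        = cjT q ((z⁻¹ : GL (Fin n) F) : Mat) * H * ((z⁻¹ : GL (Fin n) F) : Mat) := by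
          rw [hHdef]; simp only [mul_assoc]
      _ = cjT q ((z : Mat) * ((z⁻¹ : GL (Fin n) F) : Mat)) * ((z : Mat) * ((z⁻¹ : GL (Fin n) F) : Mat)) := by
          rw [← hZ, cjT_mul hF]; simp only [mul_assoc]
      _ = 1 := by rw [Units.mul_inv, cjT_one hF, one_mul]
  refine isConj_iff.2 ⟨⟨w, hw⟩, Subtype.ext ?_⟩
  show c * z⁻¹ * (g : GL (Fin n) F) * (c * z⁻¹)⁻¹ = (g' : GL (Fin n) F)
  have hzg : z * (g : GL (Fin n) F) = (g : GL (Fin n) F) * z := Units.ext (hZc _ hcomm).eq.symm
  rw [← hc, mul_inv_rev, inv_inv, mul_assoc c z⁻¹, show z⁻¹ * (g : GL (Fin n) F) =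
    (g : GL (Fin n) F) * z⁻¹ from by rw [inv_mul_eq_iff_eq_mul, ← mul_assoc, hzg, mul_inv_cancel_right]]
  group

theorem card_range_toLin' (B : Mat) :
    Nat.card (Set.range (Matrix.toLin' B)) = Fintype.card F ^ B.rank := by
  rw [← LinearMap.coe_range, Matrix.rank]
  exact (Module.natCard_eq_pow_finrank (K := F)).trans (by rw [Nat.card_eq_fintype_card]; rfl)

theorem rank_cjT (hF : Fintype.card F = q ^ 2) (B : Mat) : (cjT q B).rank = B.rank := by
  rw [show cjT q B = (B.map fun x => x ^ q).transpose from rfl, Matrix.rank_transpose]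
  refine Nat.pow_right_injective (Fintype.one_lt_card (α := F)) ?_
  show Fintype.card F ^ _ = Fintype.card F ^ _
  rw [← card_range_toLin', ← card_range_toLin']
  let σ : (Fin n → F) ≃ (Fin n → F) :=
    ⟨fun v i => v i ^ q, fun v i => v i ^ q, fun v => funext fun i => pow_q_q hF _,
      fun v => funext fun i => pow_q_q hF _⟩
  have key : ∀ v, Matrix.toLin' (B.map fun x => x ^ q) (σ v) = σ (Matrix.toLin' B v) := fun v => by
    funext i
    simp [σ, Matrix.mulVec, dotProduct, sum_pow_q hF, mul_pow]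
  symm
  refine Nat.card_congr (σ.subtypeEquiv fun w => ?_)
  constructor
  · rintro ⟨v, rfl⟩; exact ⟨σ v, key v⟩
  · rintro ⟨v, hv⟩
    exact ⟨σ.symm v, σ.injective (by rw [← key, σ.apply_symm_apply]; exact hv)⟩

theorem imgCard_eq_rank (x : GL (Fin n) F) (a : F[X]) :
    imgCard x a = Fintype.card F ^ (aeval (x : Mat) a).rank := by
  rw [imgCard, show Matrix.toLin' (x : Mat) = Matrix.toLinAlgEquiv' (x : Mat) from rfl,
    aeval_algHom_apply]
  exact card_range_toLin' _

/-- The inverse of the conjugate transpose. -/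
noncomputable def dualGL (hF : Fintype.card F = q ^ 2) (x : GL (Fin n) F) : GL (Fin n) F :=
  (isUnit_cjT hF x.isUnit).unit⁻¹

theorem cjT_aeval (hF : Fintype.card F = q ^ 2) (A : Mat) (a : F[X]) :
    cjT q (aeval A a) = aeval (cjT q A) (a.map (conjHom hF)) := by
  induction a using Polynomial.induction_on' with
  | add a b ha hb => rw [map_add, cjT_add hF, ha, hb, Polynomial.map_add, map_add]
  | monomial k c =>
    rw [aeval_monomial, map_monomial, aeval_monomial, cjT_mul hF]
    have h1 : cjT q (algebraMap F Mat c) = algebraMap F Mat (c ^ q) := cjT_scalar hF c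
    have h2 : cjT q (A ^ k) = cjT q A ^ k := by
      induction k with
      | zero => rw [pow_zero, pow_zero, cjT_one hF]
      | succ k ih => rw [pow_succ, cjT_mul hF, ih, pow_succ']
    rw [h1, h2, conjHom_apply]
    exact (Algebra.commutes _ _).symm

theorem imgCard_dual (hF : Fintype.card F = q ^ 2) (x : GL (Fin n) F) (a : F[X]) (h0 : a.coeff 0 ≠ 0) :
    imgCard (dualGL hF x) a = imgCard x (conjRecip (conjHom hF) a) := by
  set y := (isUnit_cjT hF x.isUnit).unit with hy
  have hyv : (y : Mat) = cjT q (x : Mat) := IsUnit.unit_spec _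
  -- clear the denominators
  have hrev : aeval ((y⁻¹ : GL (Fin n) F) : Mat) a * ((y : Mat) ^ a.natDegree) =
      aeval (y : Mat) a.reverse := by
    have hd : a.reverse.natDegree < a.natDegree + 1 :=
      Nat.lt_succ_of_le (a.reverse_natDegree_le)
    rw [aeval_eq_sum_range, aeval_eq_sum_range' hd, Finset.sum_mul]
    rw [← Finset.sum_range_reflect]
    refine Finset.sum_congr rfl fun i hi => ?_
    have hi' : i ≤ a.natDegree := Nat.lt_succ_iff.1 (Finset.mem_range.1 hi)
    rw [Nat.add_sub_cancel, coeff_reverse, revAt_le hi', smul_mul_assoc,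
      ← Units.val_pow_eq_pow_val, ← Units.val_pow_eq_pow_val, ← Units.val_pow_eq_pow_val,
      ← Units.val_mul]
    congr 2
    rw [inv_pow, inv_mul_eq_iff_eq_mul, ← pow_add, Nat.sub_add_cancel hi']
  have e1 : aeval (y : Mat) a.reverse =
      cjT q (aeval (x : Mat) (C (conjHom hF (a.coeff 0)) * conjRecip (conjHom hF) a)) := by
    rw [conjRecip, ← mul_assoc, ← C_mul, mul_inv_cancel₀ ((_root_.map_ne_zero _).2 h0), C_1, one_mul,
      cjT_aeval hF, ← hyv]
    congr 1
    refine Polynomial.ext fun i => ?_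
    rw [coeff_map, coeff_reverse, coeff_reverse, natDegree_map, coeff_map, conjHom_apply,
      conjHom_apply, pow_q_q hF]
  have hdual : ((dualGL hF x : GL (Fin n) F) : Mat) = ((y⁻¹ : GL (Fin n) F) : Mat) := rfl
  have hne : conjHom hF (a.coeff 0) ≠ 0 := (_root_.map_ne_zero _).2 h0
  rw [← imgCard_C_mul hne x, imgCard_eq_rank, imgCard_eq_rank, hdual,
    ← rank_cjT hF (aeval (x : Mat) _), ← e1, ← hrev,
    Matrix.rank_mul_eq_left_of_isUnit_det _ _ ((Matrix.isUnit_iff_isUnit_det _).1 (y.isUnit.pow _))]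

theorem conjRecip_one' (hF : Fintype.card F = q ^ 2) : conjRecip (conjHom hF) (1 : F[X]) = 1 := by
  rw [conjRecip, coeff_one_zero, map_one, inv_one, C_1, one_mul, Polynomial.map_one, ← C_1, reverse_C]

theorem conjRecip_pow (hF : Fintype.card F = q ^ 2) (P : F[X]) (j : ℕ) :
    conjRecip (conjHom hF) (P ^ j) = conjRecip (conjHom hF) P ^ j := by
  induction j with
  | zero => rw [pow_zero, pow_zero, conjRecip_one' hF]
  | succ j ih => rw [pow_succ, pow_succ, conjRecip_mul, ih]

theorem conjRecip_prod (hF : Fintype.card F = q ^ 2) {ι : Type*} (s : Finset ι) (p : ι → F[X]) :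
    conjRecip (conjHom hF) (∏ i ∈ s, p i) = ∏ i ∈ s, conjRecip (conjHom hF) (p i) := by
  classical
  induction s using Finset.induction_on with
  | empty => simp [conjRecip_one' hF]
  | insert a s ha ih => rw [Finset.prod_insert ha, Finset.prod_insert ha, conjRecip_mul, ih]

theorem conjHom_conjHom (hF : Fintype.card F = q ^ 2) (a : F) :
    conjHom hF (conjHom hF a) = a := by
  rw [conjHom_apply, conjHom_apply]; exact pow_q_q hF a

open scoped _root_.Classical in
theorem tup_dual (hF : Fintype.card F = q ^ 2) (x : GL (Fin n) F) :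
    tup (dualGL hF x) = fun k => conjRecip (conjHom hF) (tup x k) := by
  obtain ⟨ι, _, p, e, hd, he⟩ := tup_spec x
  obtain ⟨κ, _, r, d, hd', he'⟩ := tup_spec (dualGL hF x)
  set σ := conjHom hF with hσ
  have hσσ : ∀ a, σ (σ a) = a := conjHom_conjHom hF
  have hlev : levelProd n (fun i => conjRecip σ (p i)) e = fun k => conjRecip σ (tup x k) := by
    funext k
    rw [he, levelProd, levelProd, conjRecip_prod hF]
  rw [he', ← hlev]
  refine levelProd_eq_of_exps (fun i => ⟨(hd'.1 i).1, (hd'.1 i).2.1⟩)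
    (fun i => ⟨monic_conjRecip (hd.1 i).2.2.1,
      irreducible_conjRecip hσσ (hd.1 i).2.1 (hd.1 i).1 (hd.1 i).2.2.1⟩) fun P j hP => ?_
  by_cases h0 : P.coeff 0 = 0
  · have z1 : ∀ i, r i ≠ P := fun i hi => (hd'.1 i).2.2.1 (hi ▸ h0)
    have z2 : ∀ i, conjRecip σ (p i) ≠ P := fun i hi => by
      have := congrArg (fun Q : F[X] => Q.coeff 0) hi
      simp only [coeff_zero_conjRecip (hd.1 i).1, h0, inv_eq_zero, map_eq_zero] at this
      exact (hd.1 i).2.2.1 this
    simp only [if_neg (z1 _), if_neg (z2 _)]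
    rw [hd'.2.1]
    refine Eq.symm ((Finset.sum_congr rfl fun i _ => ?_).trans hd.2.1)
    rw [natDegree_conjRecip (hd.1 i).2.2.1]
  have hP' : (conjRecip σ P).Monic ∧ Irreducible (conjRecip σ P) :=
    ⟨monic_conjRecip h0, irreducible_conjRecip hσσ hP.2 hP.1 h0⟩
  have h1 := imgCard_of_dec hd' hP j
  rw [imgCard_dual hF x _ (by rw [coeff_zero_eq_eval_zero, eval_pow, ← coeff_zero_eq_eval_zero]; exact pow_ne_zero _ h0),
    conjRecip_pow hF, imgCard_of_dec hd hP' j] at h1
  refine (Nat.pow_right_injective Fintype.one_lt_card h1).symm.trans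
    (Finset.sum_congr rfl fun i _ => ?_)
  rw [natDegree_conjRecip (hd.1 i).2.2.1]
  have hiff : p i = conjRecip σ P ↔ conjRecip σ (p i) = P :=
    ⟨fun h => by rw [h, conjRecip_conjRecip hσσ hP.1 h0],
      fun h => by rw [← h, conjRecip_conjRecip hσσ (hd.1 i).1 (hd.1 i).2.2.1]⟩
  by_cases hi : p i = conjRecip σ P
  · rw [if_pos hi, if_pos (hiff.1 hi)]
  · rw [if_neg hi, if_neg (fun h => hi (hiff.2 h))]

/-- Self-duality. -/
def IsSelfDual (hF : Fintype.card F = q ^ 2) (h : F[X]) : Prop := conjRecip (conjHom hF) h = h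

theorem dualGL_of_mem (hF : Fintype.card F = q ^ 2) {x : GL (Fin n) F} (hx : x ∈ GU n F q) :
    dualGL hF x = x := by
  rw [dualGL, inv_eq_iff_mul_eq_one]
  refine Units.ext ?_
  rw [Units.val_mul, IsUnit.unit_spec, Units.val_one]
  exact (mem_GU_iff_cjT hF).1 hx

theorem isSelfDual_tup (hF : Fintype.card F = q ^ 2) (x : ↥(GU n F q)) (k : Fin n) :
    IsSelfDual hF (tup (x : GL (Fin n) F) k) := by
  have h := congrFun (tup_dual hF (x : GL (Fin n) F)) k
  rw [dualGL_of_mem hF x.2] at h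
  exact h.symm

theorem exists_GU_tup (hF : Fintype.card F = q ^ 2) {g : Fin n → F[X]} (hg : g ∈ tupleSet n n)
    (hsd : ∀ k, IsSelfDual hF (g k)) : ∃ x : ↥(GU n F q), tup (x : GL (Fin n) F) = g := by
  obtain ⟨x, rfl⟩ := exists_tup_eq hg
  obtain ⟨c, hc⟩ := isConj_iff.1 (isConj_of_tup_eq (x := x) (y := dualGL hF x)
    ((tup_dual hF x).trans (funext hsd)).symm)
  have hinv : cjT q (x : Mat) * (c : Mat) * (x : Mat) = (c : Mat) := by
    have h1 : (isUnit_cjT hF x.isUnit).unit * (c * x) = c := by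
      rw [mul_inv_eq_iff_eq_mul] at hc
      rw [hc, dualGL, mul_inv_cancel_left]
    have h2 := congrArg (fun u : GL (Fin n) F => (u : Mat)) h1
    simpa [mul_assoc] using h2
  obtain ⟨H, hHu, hH, hHinv⟩ := exists_hermitian_invariant hF x.isUnit c.isUnit hinv
  obtain ⟨Z, hZu, -, hZ⟩ := exists_cjT_mul_self hF hH hHu
  obtain ⟨z, rfl⟩ := hZu
  refine ⟨⟨z * x * z⁻¹, ?_⟩, tup_eq_of_isConj (isConj_iff.2 ⟨z⁻¹, by group⟩)⟩
  rw [mem_GU_iff_cjT hF, Units.val_mul, Units.val_mul, cjT_mul hF, cjT_mul hF]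
  calc cjT q ((z⁻¹ : GL (Fin n) F) : Mat) * (cjT q (x : Mat) * cjT q (z : Mat)) *
        ((z : Mat) * (x : Mat) * ((z⁻¹ : GL (Fin n) F) : Mat))
      = cjT q ((z⁻¹ : GL (Fin n) F) : Mat) * (cjT q (x : Mat) * H * (x : Mat)) *
          ((z⁻¹ : GL (Fin n) F) : Mat) := by rw [← hZ]; simp only [mul_assoc]
    _ = cjT q ((z : Mat) * ((z⁻¹ : GL (Fin n) F) : Mat)) * ((z : Mat) * ((z⁻¹ : GL (Fin n) F) : Mat)) := by
        rw [hHinv, ← hZ, cjT_mul hF]; simp only [mul_assoc]
    _ = 1 := by rw [Units.mul_inv, cjT_one hF, one_mul]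

/-- The tuple of a class of `GU`. -/
noncomputable def guTup (C : ConjClasses ↥(GU n F q)) : Fin n → F[X] :=
  classTup (ConjClasses.map (GU n F q).subtype C)

theorem guTup_mk (x : ↥(GU n F q)) : guTup (ConjClasses.mk x) = tup (x : GL (Fin n) F) := rfl

open scoped _root_.Classical in
/-- The classes of `GU` correspond to the self-dual tuples. -/
noncomputable def guClassEquiv (hF : Fintype.card F = q ^ 2) :
    ConjClasses ↥(GU n F q) ≃
      {g // g ∈ (tupleSet (F := F) n n).filter fun g => ∀ k, IsSelfDual hF (g k)} :=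
  Equiv.ofBijective (fun C => ⟨guTup C, by
    obtain ⟨x, rfl⟩ := ConjClasses.mk_surjective C
    exact Finset.mem_filter.2 ⟨tup_mem _, isSelfDual_tup hF x⟩⟩) ⟨fun C C' h => by
    obtain ⟨x, rfl⟩ := ConjClasses.mk_surjective C
    obtain ⟨y, rfl⟩ := ConjClasses.mk_surjective C'
    exact ConjClasses.mk_eq_mk_iff_isConj.2 (isConj_GU_of_isConj hF
      (isConj_of_tup_eq (congrArg Subtype.val h))), fun g => by
    obtain ⟨hg, hsd⟩ := Finset.mem_filter.1 g.2
    obtain ⟨x, hx⟩ := exists_GU_tup hF hg hsd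
    exact ⟨ConjClasses.mk x, Subtype.ext hx⟩⟩

end CfsgLib.SUClassCount
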