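import Cfsg.Agent.SUClassCount.Classes
import Cfsg.Agent.Spec53.SUClassCount
import Cfsg.Agent.SUClassCount.Arith
import Cfsg.Agent.SLClassCount.Sums
import Cfsg.Agent.SUClassCount.CharPairs

/-!
Character sums over the classes of the unitary group.
-/

set_option autoImplicit false

open Polynomial Cfsg CfsgLib.Unitary
open scoped Classical

namespace CfsgLib.SUClassCount

open CfsgLib.GLClassCount CfsgLib.SLClassCount CfsgLib.Spec53

universe u

variable {F : Type u} [Field F] [Fintype F] {q n : ℕ}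

/-- The norm-one units. -/
abbrev normOne (F : Type u) [Field F] (q : ℕ) : Subgroup Fˣ := (powMonoidHom (q + 1) : Fˣ →* Fˣ).ker

theorem natCard_normOne (hF : Fintype.card F = q ^ 2) : Nat.card ↥(normOne F q) = q + 1 := by
  rw [IsCyclic.card_powMonoidHom_ker, card_units_eq hF]
  exact Nat.gcd_eq_right (dvd_mul_left _ _)

theorem mem_normOne {a : Fˣ} : a ∈ normOne F q ↔ (a : F) ^ (q + 1) = 1 := by
  rw [MonoidHom.mem_ker, powMonoidHom_apply, Units.ext_iff, Units.val_pow_eq_pow_val, Units.val_one]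

/-- Norm-one elements as units. -/
noncomputable def toN (q : ℕ) (c : F) : ↥(normOne F q) :=
  if h : ∃ a : ↥(normOne F q), ((a : Fˣ) : F) = c then h.choose else 1

theorem toN_spec {c : F} (h : c ^ (q + 1) = 1) : ((toN q c : Fˣ) : F) = c := by
  have hc : c ≠ 0 := fun e => by rw [e, zero_pow (Nat.succ_ne_zero q)] at h; exact zero_ne_one h
  have he : ∃ a : ↥(normOne F q), ((a : Fˣ) : F) = c :=
    ⟨⟨Units.mk0 c hc, mem_normOne.2 h⟩, rfl⟩
  rw [toN, dif_pos he]
  exact he.choose_spec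

theorem card_selfDual_coeff (hF : Fintype.card F = q ^ 2) {m : ℕ} {c : F} (hc1 : c ^ (q + 1) = 1) :
    Nat.card {P : F[X] // P.Monic ∧ P.natDegree = m + 1 ∧ P.coeff 0 = c ∧
      conjRecip (conjHom hF) P = P} = q ^ m := by
  have hc0 : c ≠ 0 := fun h => by rw [h, zero_pow (Nat.succ_ne_zero q)] at hc1; exact zero_ne_one hc1
  have hcinv : (c ^ q)⁻¹ = c := inv_eq_of_mul_eq_one_right (by rw [← pow_succ]; exact hc1)
  refine Eq.trans ?_ (card_fixed_semilinear hF (m := m) hc1)
  let e : {P : F[X] // P.Monic ∧ P.natDegree = m + 1} ≃ (Fin (m + 1) → F) :=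
    (Polynomial.monicEquivDegreeLT (m + 1)).trans (Polynomial.degreeLTEquiv F (m + 1)).toEquiv
  have he : ∀ P j, e P j = P.1.coeff (j : ℕ) := by
    intro P j
    show P.1.eraseLead.coeff (j : ℕ) = _
    rw [Polynomial.eraseLead_coeff_of_ne _ (by rw [P.2.2]; omega)]
  refine Nat.card_eq_of_bijective (fun P => ⟨fun i => P.1.coeff (i.val + 1), fun i => ?_⟩) ⟨?_, ?_⟩
  · obtain ⟨P, hm, hd, h0, hP⟩ := P
    have h := coeff_conjRecip (σ := conjHom hF) (P := P) (k := i.val + 1) (by omega)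
    rw [hP, h0, conjHom_apply, conjHom_apply, hcinv, hd] at h
    show P.coeff (i.val + 1) = c * P.coeff (i.rev.val + 1) ^ q
    rw [h, Fin.val_rev]
    congr 3
    omega
  · intro P Q h
    refine Subtype.ext (congrArg Subtype.val (e.injective
      (a₁ := ⟨P.1, P.2.1, P.2.2.1⟩) (a₂ := ⟨Q.1, Q.2.1, Q.2.2.1⟩) (funext fun j => ?_)) :)
    rw [he, he]
    refine Fin.cases ?_ (fun i => ?_) j
    · show P.1.coeff 0 = Q.1.coeff 0
      rw [P.2.2.2.1, Q.2.2.2.1]
    · exact congrFun (congrArg Subtype.val h) i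
  · rintro ⟨a, ha⟩
    set P := e.symm (Fin.cons c a)
    have hco : ∀ j : Fin (m + 1), P.1.coeff (j : ℕ) = (Fin.cons c a : Fin (m + 1) → F) j := fun j => by
      rw [← he P j, Equiv.apply_symm_apply]
    have h0 : P.1.coeff 0 = c := hco 0
    have hi : ∀ i : Fin m, P.1.coeff (i.val + 1) = a i := fun i => by
      simpa using hco i.succ
    refine ⟨⟨P.1, P.2.1, P.2.2, h0, ?_⟩, Subtype.ext (funext hi)⟩
    refine Polynomial.ext fun k => ?_
    rcases le_or_gt k (m + 1) with hk | hk
    · rw [coeff_conjRecip (by rw [P.2.2]; exact hk), h0, conjHom_apply, conjHom_apply, hcinv,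
        P.2.2]
      rcases Nat.eq_zero_or_pos k with rfl | hk0
      · have htop : P.1.coeff (m + 1) = 1 := by
          have := P.2.1.coeff_natDegree; rwa [P.2.2] at this
        rw [Nat.sub_zero, htop, one_pow, mul_one, h0]
      rcases hk.eq_or_lt with rfl | hlt
      · have htop : P.1.coeff (m + 1) = 1 := by
          have := P.2.1.coeff_natDegree; rwa [P.2.2] at this
        rw [Nat.sub_self, h0, htop, ← pow_succ', hc1]
      · obtain ⟨j, rfl⟩ : ∃ j, k = j + 1 := ⟨k - 1, by omega⟩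
        have h := ha ⟨j, by omega⟩
        rw [← hi, ← hi, Fin.val_rev] at h
        rw [h]
        congr 3
        simp only []
        omega
    · rw [Polynomial.coeff_eq_zero_of_natDegree_lt (by
          rw [natDegree_conjRecip (by rw [h0]; exact hc0), P.2.2]; exact hk),
        Polynomial.coeff_eq_zero_of_natDegree_lt (by rw [P.2.2]; exact hk)]

theorem neg_one_pow_norm (hF : Fintype.card F = q ^ 2) (m : ℕ) :
    ((-1 : F) ^ m) ^ (q + 1) = 1 := by
  rw [← pow_mul, mul_comm, pow_mul, neg_one_pow_succ hF, one_pow]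

theorem sgnConst_norm (hF : Fintype.card F = q ^ 2) {h : F[X]} (hm : h.Monic) (h0 : h.coeff 0 ≠ 0)
    (hsd : IsSelfDual hF h) : sgnConst h ^ (q + 1) = 1 := by
  have h1 : (conjRecip (conjHom hF) h).coeff 0 = h.coeff 0 := congrArg (fun P : F[X] => P.coeff 0) hsd
  rw [coeff_zero_conjRecip hm, conjHom_apply] at h1
  have h2 : h.coeff 0 ^ (q + 1) = 1 := by
    rw [pow_succ]
    conv_lhs => arg 2; rw [← h1]
    exact mul_inv_cancel₀ (pow_ne_zero _ h0)
  rw [sgnConst, mul_pow, neg_one_pow_norm hF, h2, one_mul]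

theorem sum_char_pow (hF : Fintype.card F = q ^ 2) (γ : ↥(normOne F q) →* ℂˣ) (i : ℕ) :
    ∑ a : ↥(normOne F q), ((γ a : ℂˣ) : ℂ) ^ i = if orderOf γ ∣ i then ((q + 1 : ℕ) : ℂ) else 0 := by
  have e : ∀ a : ↥(normOne F q), ((γ a : ℂˣ) : ℂ) ^ i = (((γ ^ i) a : ℂˣ) : ℂ) := fun a => by
    rw [MonoidHom.pow_apply, Units.val_pow_eq_pow_val]
  simp only [e]
  by_cases h : orderOf γ ∣ i
  · rw [if_pos h, orderOf_dvd_iff_pow_eq_one.1 h]
    simp only [MonoidHom.one_apply, Units.val_one, Finset.sum_const, Finset.card_univ,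
      nsmul_eq_mul, mul_one]
    rw [← Nat.card_eq_fintype_card, natCard_normOne hF]
  · rw [if_neg h]
    refine sum_hom_units_eq_zero ((Units.coeHom ℂ).comp (γ ^ i)) fun e => h ?_
    refine orderOf_dvd_iff_pow_eq_one.2 (MonoidHom.ext fun a => Units.ext ?_)
    simpa using DFunLike.congr_fun e a

/-- The weight of one level. -/
noncomputable def levelSumU (hF : Fintype.card F = q ^ 2) (γ : ↥(normOne F q) →* ℂˣ) (i m : ℕ) : ℂ :=
  ∑ h ∈ (goodSet (F := F) m).filter (IsSelfDual hF), ((γ (toN q (sgnConst h)) : ℂˣ) : ℂ) ^ i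

theorem levelSumU_eq (hF : Fintype.card F = q ^ 2) (γ : ↥(normOne F q) →* ℂˣ) (i m : ℕ) :
    levelSumU hF γ i m = if m = 0 ∨ orderOf γ ∣ i then (levelU q m : ℂ) else 0 := by
  rcases m with _ | m
  · have h0 : goodSet (F := F) 0 = {1} := by
      ext p
      rw [mem_goodSet, Finset.mem_singleton]
      refine ⟨fun hp => hp.1.1.natDegree_eq_zero.1 hp.1.2, ?_⟩
      rintro rfl; simp
    have h1 : toN q (sgnConst (1 : F[X])) = 1 := by
      refine Subtype.ext (Units.ext ?_)
      rw [toN_spec (by simp [sgnConst])]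
      simp [sgnConst]
    simp [levelSumU, h0, Finset.filter_singleton, IsSelfDual, conjRecip_one' hF, h1, levelU]
  rw [levelSumU, levelU, if_neg (Nat.succ_ne_zero m), Nat.add_sub_cancel,
    ← Finset.sum_fiberwise _ (fun h => toN q (sgnConst h))]
  have hfib : ∀ a : ↥(normOne F q), ((((goodSet (F := F) (m + 1)).filter (IsSelfDual hF))).filter
      (fun h => toN q (sgnConst h) = a)).card = q ^ m := by
    intro a
    have ha : ((a : Fˣ) : F) ^ (q + 1) = 1 := mem_normOne.1 a.2
    rw [← card_selfDual_coeff hF (m := m) (c := (-1) ^ (m + 1) * ((a : Fˣ) : F))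
      (by rw [mul_pow, neg_one_pow_norm hF, ha, one_mul]), ← Nat.card_eq_finsetCard]
    refine Nat.card_congr (Equiv.subtypeEquivRight fun h => ?_)
    have hs : ((-1 : F) ^ (m + 1)) * (-1) ^ (m + 1) = 1 := by
      rw [← mul_pow, neg_mul_neg, one_mul, one_pow]
    simp only [Finset.mem_filter, mem_goodSet]
    constructor
    · rintro ⟨⟨⟨⟨hm, hd⟩, h0⟩, hsd⟩, hfa⟩
      refine ⟨hm, hd, ?_, hsd⟩
      rw [← hfa, toN_spec (sgnConst_norm hF hm h0 hsd), sgnConst, hd, ← mul_assoc, hs, one_mul]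
    · rintro ⟨hm, hd, hc, hsd⟩
      have h0 : h.coeff 0 ≠ 0 := by
        rw [hc]; exact mul_ne_zero (pow_ne_zero _ (neg_ne_zero.2 one_ne_zero)) (a : Fˣ).ne_zero
      refine ⟨⟨⟨⟨hm, hd⟩, h0⟩, hsd⟩, Subtype.ext (Units.ext ?_)⟩
      rw [toN_spec (sgnConst_norm hF hm h0 hsd), sgnConst, hd, hc, ← mul_assoc, hs, one_mul]
  rw [Finset.sum_congr rfl fun a _ => Finset.sum_eq_card_nsmul (b := ((γ a : ℂˣ) : ℂ) ^ i)
    fun h hh => by rw [(Finset.mem_filter.1 hh).2]]
  simp only [hfib, nsmul_eq_mul, ← Finset.mul_sum, sum_char_pow hF]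
  simp only [Nat.succ_ne_zero, false_or]
  split_ifs
  · push_cast; ring
  · simp

/-- The sum over self-dual tuples. -/
noncomputable def tupSumU (hF : Fintype.card F = q ^ 2) (γ : ↥(normOne F q) →* ℂˣ) (n K : ℕ) : ℂ :=
  ∑ g ∈ (tupleSet (F := F) n K).filter (fun g => ∀ k, IsSelfDual hF (g k)),
    ∏ k, ((γ (toN q (sgnConst (g k))) : ℂˣ) : ℂ) ^ (k.val + 1)

theorem tupSumU_succ (hF : Fintype.card F = q ^ 2) (γ : ↥(normOne F q) →* ℂˣ) (n K : ℕ) :
    tupSumU hF γ n (K + 1) = ∑ m ∈ Finset.range (n / (K + 1) + 1),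
      levelSumU hF γ (K + 1) m * tupSumU hF γ (n - (K + 1) * m) K := by
  rw [tupSumU, tupleSet, Finset.filter_biUnion, Finset.sum_biUnion]
  · refine Finset.sum_congr rfl fun m _ => ?_
    rw [Finset.filter_image, Finset.sum_image]
    · rw [levelSumU, tupSumU, Finset.sum_mul_sum, ← Finset.sum_product']
      refine Finset.sum_congr ?_ fun x _ => ?_
      · ext ⟨h, g⟩
        simp only [Finset.mem_filter, Finset.mem_product, Fin.forall_fin_succ',
          Fin.snoc_castSucc, Fin.snoc_last]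
        tauto
      · rw [Fin.prod_univ_castSucc]
        simp only [Fin.snoc_castSucc, Fin.snoc_last, Fin.val_castSucc, Fin.val_last]
        ring
    · intro a _ b _ e
      exact Prod.ext (by simpa using congrFun e (Fin.last K))
        (funext fun k => by simpa using congrFun e k.castSucc)
  · intro a _ b _ hab
    rw [Function.onFun, Finset.disjoint_left]
    intro g hga hgb
    simp only [Finset.mem_filter, Finset.mem_image, Finset.mem_product] at hga hgb
    obtain ⟨⟨x, ⟨hx, -⟩, rfl⟩, -⟩ := hga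
    obtain ⟨⟨y, ⟨hy, -⟩, e⟩, -⟩ := hgb
    have e1 : y.1 = x.1 := by simpa using congrFun e (Fin.last K)
    exact hab ((mem_goodSet.1 hx).1.2.symm.trans (e1 ▸ (mem_goodSet.1 hy).1.2))

theorem tupSumU_eq (hF : Fintype.card F = q ^ 2) (γ : ↥(normOne F q) →* ℂˣ) {a : ℕ}
    (ha : orderOf γ = a) (ha0 : 0 < a) : ∀ K n : ℕ, tupSumU hF γ n K =
      if a ∣ n then (tupleU q (n / a) (K / a) : ℂ) else 0 := by
  intro K
  induction K with
  | zero =>
    intro n
    rw [tupSumU, Nat.zero_div]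
    simp only [tupleSet, tupleU]
    rcases Nat.eq_zero_or_pos n with rfl | hn
    · simp
    · rw [if_neg hn.ne']
      split_ifs with h1 h2
      · exfalso
        have := Nat.div_pos (Nat.le_of_dvd hn h1) ha0
        omega
      · simp
      · simp
  | succ K ih =>
    intro n
    rw [tupSumU_succ]
    simp only [ih, levelSumU_eq, ha]
    by_cases hak : a ∣ K + 1
    swap
    · rw [Finset.sum_eq_single_of_mem 0 (Finset.mem_range.2 (Nat.succ_pos _))]
      · rw [if_pos (Or.inl rfl), mul_zero, Nat.sub_zero, Nat.succ_div_of_not_dvd hak]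
        simp [levelU]
      · intro m _ hm
        rw [if_neg (fun h => h.elim hm hak), zero_mul]
    simp only [hak, or_true, if_true]
    rw [Nat.succ_div_of_dvd hak]
    set K' := K / a with hK'
    have hK1 : K + 1 = a * (K' + 1) := by
      rw [← Nat.succ_div_of_dvd hak, Nat.mul_div_cancel' hak]
    have hdvd : ∀ m, a ∣ (K + 1) * m := fun m => dvd_mul_of_dvd_left hak m
    have hle : ∀ m ∈ Finset.range (n / (K + 1) + 1), (K + 1) * m ≤ n := fun m hm => by
      rw [mul_comm]
      exact (Nat.le_div_iff_mul_le (Nat.add_one_pos K)).1 (Nat.lt_succ_iff.1 (Finset.mem_range.1 hm))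
    by_cases hn : a ∣ n
    swap
    · rw [if_neg hn]
      refine Finset.sum_eq_zero fun m hm => ?_
      rw [if_neg (fun h => hn ?_), mul_zero]
      have := Nat.dvd_add h (hdvd m)
      rwa [Nat.sub_add_cancel (hle m hm)] at this
    rw [if_pos hn]
    obtain ⟨N, rfl⟩ := hn
    rw [Nat.mul_div_cancel_left _ ha0, tupleU, Nat.cast_sum,
      show a * N / (K + 1) = N / (K' + 1) by rw [hK1, Nat.mul_div_mul_left _ _ ha0]]
    refine Finset.sum_congr rfl fun m _ => ?_
    rw [if_pos (Nat.dvd_sub (dvd_mul_right a N) (hdvd m)), hK1, mul_assoc, ← Nat.mul_sub,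
      Nat.mul_div_cancel_left _ ha0, Nat.cast_mul]

/-- The determinant of `GU` with values in the norm-one units. -/
noncomputable def detN (hF : Fintype.card F = q ^ 2) : ↥(GU n F q) →* ↥(normOne F q) :=
  (detGU : ↥(GU n F q) →* Fˣ).codRestrict (normOne F q) fun g => mem_normOne.2 (by
    simpa [detGU] using det_pow_succ_eq_one hF g.2)

theorem guClassEquiv_mk (hF : Fintype.card F = q ^ 2) (x : ↥(GU n F q)) :
    (guClassEquiv hF (ConjClasses.mk x)).1 = tup (x : GL (Fin n) F) := rfl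

theorem sum_univ_congr {α β : Type*} [AddCommMonoid β] (i₁ i₂ : Fintype α) {f g : α → β}
    (h : ∀ a, f a = g a) : (@Finset.univ α i₁).sum f = (@Finset.univ α i₂).sum g := by
  cases Subsingleton.elim i₁ i₂
  exact Finset.sum_congr rfl fun a _ => h a

theorem classSum_detN (hF : Fintype.card F = q ^ 2) [Fintype ↥(GU n F q)]
    (γ : ↥(normOne F q) →* ℂˣ) :
    classSum (detN hF (n := n)) γ =
      ((if orderOf γ ∣ n then tupleU q (n / orderOf γ) (n / orderOf γ) else 0 : ℕ) : ℂ) := by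
  have h := tupSumU_eq hF γ rfl (orderOf_pos γ) n n
  rw [tupSumU, ← Finset.sum_coe_sort, ← (guClassEquiv hF).sum_comp] at h
  rw [Nat.cast_ite, Nat.cast_zero]
  refine Eq.trans ?_ h
  rw [classSum]
  refine sum_univ_congr _ _ fun C => ?_
  set g := Quotient.out C with hg
  have hC : ConjClasses.mk g = C := Quotient.out_eq C
  have hval : ((guClassEquiv hF C).1) = tup (g : GL (Fin n) F) :=
    (congrArg (fun D => (guClassEquiv hF D).1) hC).symm.trans (guClassEquiv_mk hF g)
  have hd : detN hF g = ∏ k : Fin n, toN q (sgnConst (tup (g : GL (Fin n) F) k)) ^ (k.val + 1) := by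
    refine Subtype.ext (Units.ext ?_)
    have hk : ∀ k : Fin n, sgnConst (tup (g : GL (Fin n) F) k) ^ (q + 1) = 1 := fun k => by
      obtain ⟨h1, h2⟩ := (of_mem_tupleSet n n _ (tup_mem (g : GL (Fin n) F))).1 k
      exact sgnConst_norm hF h1 h2 (isSelfDual_tup hF g k)
    show (Matrix.GeneralLinearGroup.det (g : GL (Fin n) F) : F) = _
    rw [det_eq_tup, Subgroup.val_finset_prod, Units.coe_prod]
    refine Finset.prod_congr rfl fun k _ => ?_
    rw [SubgroupClass.coe_pow, Units.val_pow_eq_pow_val, toN_spec (hk k)]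
  rw [hd, map_prod, Units.coe_prod, hval]
  exact Finset.prod_congr rfl fun k _ => by rw [map_pow, Units.val_pow_eq_pow_val]

end CfsgLib.SUClassCount
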